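import Cfsg.Agent.H685.BR.RatFinal
import Cfsg.Agent.OddHalf.Known

/-!
# S4857: the dispatch (helper514, after helper145's table)

`Rows57.known` : from the rows, `Row57 p G` for every known nonabelian simple group `G` with `p ∣ |G|`; `Rows57.all` : for
all nonabelian simple groups (`Rat57`), given the classification.
-/

set_option autoImplicit false

open Subgroup

namespace Cfsg.Agent.H685.BR

open Cfsg Cfsg.Agent.H145.BR

universe u

section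

variable {p : ℕ} [hp : Fact p.Prime]

theorem charP_of_zero {F : Type*} [Field F] (h : (p : F) = 0) : CharP F p :=
  (CharP.charP_iff_prime_eq_zero Fact.out).2 h

theorem nonab_of_equiv {X Y : Type*} [Group X] [Group Y] (e : X ≃* Y) (h : ¬ IsMulCommutative X) : ¬ IsMulCommutative Y := by
  intro hc
  refine h ⟨⟨fun a b => e.injective ?_⟩⟩
  rw [map_mul, map_mul]
  exact hc.is_comm.comm _ _

variable {X : Type} [Group X] [Finite X] [IsSimpleGroup X]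

theorem Rows57.rpsl (R : Rows57 p) (hna : ¬ IsMulCommutative X) (hd : p ∣ Nat.card X) (h : IsPSL X) : Row57 p X := by
  obtain ⟨F, iF, iN, n, hn, hn2, ⟨e⟩⟩ := h
  by_cases hF : (p : F) = 0
  · have h1 : IsPSLChar p X := ⟨F, iF, iN, charP_of_zero hF, n, hn, hn2, ⟨e⟩⟩
    exact R.lie X hna hd (Or.inl h1)
  · exact R.psl X hna hd ⟨F, iF, iN, n, hF, hn, ⟨e⟩⟩

theorem Rows57.rpsp (R : Rows57 p) (hna : ¬ IsMulCommutative X) (hd : p ∣ Nat.card X) (h : IsPSp X) : Row57 p X := by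
  obtain ⟨F, iF, iN, n, hn, hn2, ⟨e⟩⟩ := h
  by_cases hF : (p : F) = 0
  · have h1 : IsPSpChar p X := ⟨F, iF, iN, charP_of_zero hF, n, hn, hn2, ⟨e⟩⟩
    exact R.lie X hna hd (Or.inr (Or.inl h1))
  · exact R.psp X hna hd ⟨F, iF, iN, n, hF, hn, ⟨e⟩⟩

theorem Rows57.rpsu (R : Rows57 p) (hna : ¬ IsMulCommutative X) (hd : p ∣ Nat.card X) (h : IsPSU X) : Row57 p X := by
  obtain ⟨F, iF, iN, n, q, hq, hn, hn2, ⟨e⟩⟩ := h
  by_cases hF : (p : F) = 0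
  · have h1 : IsPSUChar p X := ⟨F, iF, iN, charP_of_zero hF, n, q, hq, hn, hn2, ⟨e⟩⟩
    exact R.lie X hna hd (Or.inr (Or.inr (Or.inl h1)))
  · exact R.psu X hna hd ⟨F, iF, iN, n, q, hF, hq, hn, ⟨e⟩⟩

theorem Rows57.rpodd (R : Rows57 p) (hna : ¬ IsMulCommutative X) (hd : p ∣ Nat.card X) (h : IsPOmegaOdd X) : Row57 p X := by
  obtain ⟨F, iF, iN, m, hm, hodd, ⟨e⟩⟩ := h
  by_cases hF : (p : F) = 0
  · have h1 : IsPOmegaOddChar p X := ⟨F, iF, iN, charP_of_zero hF, m, hm, hodd, ⟨e⟩⟩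
    exact R.lie X hna hd (Or.inr (Or.inr (Or.inr (Or.inl h1))))
  · exact R.oodd X hna hd ⟨F, iF, iN, m, hF, hm, hodd, ⟨e⟩⟩

theorem Rows57.rpplus (R : Rows57 p) (hna : ¬ IsMulCommutative X) (hd : p ∣ Nat.card X) (h : IsPOmegaPlus X) :
    Row57 p X := by
  obtain ⟨F, iF, iN, m, hm, ⟨e⟩⟩ := h
  by_cases hF : (p : F) = 0
  · have h1 : IsPOmegaPlusChar p X := ⟨F, iF, iN, charP_of_zero hF, m, hm, ⟨e⟩⟩
    exact R.lie X hna hd (Or.inr (Or.inr (Or.inr (Or.inr (Or.inl h1)))))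
  · exact R.oplus X hna hd ⟨F, iF, iN, m, hF, hm, ⟨e⟩⟩

theorem Rows57.rpminus (R : Rows57 p) (hna : ¬ IsMulCommutative X) (hd : p ∣ Nat.card X) (h : IsPOmegaMinus X) :
    Row57 p X := by
  obtain ⟨F, iF, iN, m, a, b, hm, hab, ⟨e⟩⟩ := h
  by_cases hF : (p : F) = 0
  · have h1 : IsPOmegaMinusChar p X := ⟨F, iF, iN, charP_of_zero hF, m, a, b, hm, hab, ⟨e⟩⟩
    exact R.lie X hna hd (Or.inr (Or.inr (Or.inr (Or.inr (Or.inr (Or.inl h1))))))
  · exact R.ominus X hna hd ⟨F, iF, iN, m, a, b, hF, hm, hab, ⟨e⟩⟩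

theorem Rows57.lie_exc (R : Rows57 p) (hna : ¬ IsMulCommutative X) (hd : p ∣ Nat.card X)
    (h : IsExceptionalChevChar p X) : Row57 p X :=
  R.lie X hna hd (Or.inr (Or.inr (Or.inr (Or.inr (Or.inr (Or.inr (Or.inl h)))))))

theorem Rows57.lie_tw (R : Rows57 p) (hna : ¬ IsMulCommutative X) (hd : p ∣ Nat.card X) (h : IsTwistedE6D4Char p X) :
    Row57 p X :=
  R.lie X hna hd (Or.inr (Or.inr (Or.inr (Or.inr (Or.inr (Or.inr (Or.inr (Or.inl h))))))))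

theorem Rows57.rexc (R : Rows57 p) (hna : ¬ IsMulCommutative X) (hd : p ∣ Nat.card X)
    (h : IsExceptionalLieType X) : Row57 p X := by
  rcases h with h | h | h | h | h | h | h | h | h | h | h
  · obtain ⟨F, iF, iN, h3, ⟨e⟩⟩ := h
    by_cases hF : (p : F) = 0
    · exact R.lie_exc hna hd ⟨F, iF, iN, charP_of_zero hF, Or.inl ⟨h3, ⟨e⟩⟩⟩
    · exact R.g2 X hna hd ⟨F, iF, iN, hF, h3, ⟨e⟩⟩
  · obtain ⟨F, iF, iN, ⟨e⟩⟩ := h
    by_cases hF : (p : F) = 0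
    · exact R.lie_exc hna hd ⟨F, iF, iN, charP_of_zero hF, Or.inr (Or.inl ⟨e⟩)⟩
    · exact R.f4 X hna hd ⟨F, iF, iN, hF, ⟨e⟩⟩
  · obtain ⟨F, iF, iN, ⟨e⟩⟩ := h
    by_cases hF : (p : F) = 0
    · exact R.lie_exc hna hd ⟨F, iF, iN, charP_of_zero hF, Or.inr (Or.inr (Or.inl ⟨e⟩))⟩
    · exact R.e6 X hna hd ⟨F, iF, iN, hF, ⟨e⟩⟩
  · obtain ⟨F, iF, iN, ⟨e⟩⟩ := h
    by_cases hF : (p : F) = 0
    · exact R.lie_exc hna hd ⟨F, iF, iN, charP_of_zero hF, Or.inr (Or.inr (Or.inr (Or.inl ⟨e⟩)))⟩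
    · exact R.e7 X hna hd ⟨F, iF, iN, hF, ⟨e⟩⟩
  · obtain ⟨F, iF, iN, ⟨e⟩⟩ := h
    by_cases hF : (p : F) = 0
    · exact R.lie_exc hna hd ⟨F, iF, iN, charP_of_zero hF, Or.inr (Or.inr (Or.inr (Or.inr ⟨e⟩)))⟩
    · exact R.e8 X hna hd ⟨F, iF, iN, hF, ⟨e⟩⟩
  · obtain ⟨K, iF, iN, q, hq, hK, ⟨e⟩⟩ := h
    by_cases hF : (p : K) = 0
    · exact R.lie_tw hna hd ⟨K, iF, iN, charP_of_zero hF, q, hq, Or.inl ⟨hK, ⟨e⟩⟩⟩
    · exact R.te6 X hna hd ⟨K, iF, iN, q, hF, hq, hK, ⟨e⟩⟩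
  · obtain ⟨K, iF, iN, q, hq, hK, ⟨e⟩⟩ := h
    by_cases hF : (p : K) = 0
    · exact R.lie_tw hna hd ⟨K, iF, iN, charP_of_zero hF, q, hq, Or.inr ⟨hK, ⟨e⟩⟩⟩
    · exact R.td4 X hna hd ⟨K, iF, iN, q, hF, hq, hK, ⟨e⟩⟩
  · exact R.sz X hna hd h
  · by_cases hp3 : p = 3
    · exact R.lie X hna hd (Or.inr (Or.inr (Or.inr (Or.inr (Or.inr (Or.inr (Or.inr (Or.inr (Or.inr (Or.inr
        ⟨hp3, h⟩))))))))))
    · exact R.ree hp3 X hna hd h
  · exact R.tf4 X hna hd h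
  · exact R.tits X hna hd h

/-- **the dispatch** -/
theorem Rows57.known (R : Rows57 p) {G : Type u} [Group G] [Finite G] [IsSimpleGroup G]
    (hna : ¬ IsMulCommutative G) (hd : p ∣ Nat.card G) (hk : IsKnownSimple' G) : Row57 p G := by
  have e : G ≃* Shrink.{0} G := (Shrink.mulEquiv.{0}).symm
  have hf : Finite (Shrink.{0} G) := Finite.of_equiv _ e.toEquiv
  have hs : IsSimpleGroup (Shrink.{0} G) := e.symm.isSimpleGroup
  have h1 := nonab_of_equiv e hna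
  have h2 : p ∣ Nat.card (Shrink.{0} G) := by rwa [← Nat.card_congr e.toEquiv]
  refine Row57.congr e ?_
  rcases OddHalf.Known.isKnownSimple'_congr e hna hk with h | h | h | h | h | h | h | h | h | h
  · exfalso
    have h3 : (Nat.card (Shrink.{0} G)).Prime := h
    have : Fact (Nat.card (Shrink.{0} G)).Prime := ⟨h3⟩
    have hc : IsCyclic (Shrink.{0} G) := isCyclic_of_prime_card rfl
    exact h1 ⟨⟨fun a b => by
      let _ : CommGroup (Shrink.{0} G) := IsCyclic.commGroup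
      exact mul_comm a b⟩⟩
  · exact R.alt _ h1 h2 h
  · exact R.rpsl h1 h2 h
  · exact R.rpsp h1 h2 h
  · exact R.rpsu h1 h2 h
  · exact R.rpodd h1 h2 h
  · exact R.rpplus h1 h2 h
  · exact R.rpminus h1 h2 h
  · exact R.rexc h1 h2 h
  · exact R.spor _ h1 h2 h

end

/-- **all simple groups**, from the rows and the classification -/
theorem Rows57.all {p : ℕ} [Fact p.Prime] (R : Rows57 p)
    (hcfsg : ∀ (G : Type u) [Group G] [Finite G] [IsSimpleGroup G], IsKnownSimple' G) : Rat57.{u} p :=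
  fun S _ _ _ hna hd => R.known hna hd (hcfsg S)

end Cfsg.Agent.H685.BR
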